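import Cfsg.Agent.H851.Rl.PDefs

/-!
# S3691, row `PSL_n(q)`: the reduction for `5 ≤ n ≤ 9`, the numbers (helper44)
-/

set_option autoImplicit false
set_option linter.unusedTactic false
set_option linter.unreachableTactic false
set_option linter.unusedVariables false

namespace Cfsg.Agent.H44.Rl.RedNum

open Cfsg.Agent.H851.Rl

/-! ### numbers -/

theorem two_mul_le {p f : ℕ} (hp : 2 ≤ p) : 2 * f ≤ p ^ f := by
  rcases f with _ | f
  · simp
  · have h1 : f < 2 ^ f := Nat.lt_two_pow_self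
    calc 2 * (f + 1) ≤ 2 * 2 ^ f := Nat.mul_le_mul_left _ h1
      _ = 2 ^ (f + 1) := by rw [pow_succ]; ring
      _ ≤ p ^ (f + 1) := Nat.pow_le_pow_left hp _

/-- the exponents -/
def aN (n : ℕ) : ℕ := if n = 5 then 6 else if n = 6 then 22 else if n = 7 then 8 else if n = 8 then 37 else 28

def bN (n : ℕ) : ℕ := if n = 5 then 17 else if n = 6 then 12 else if n = 7 then 30 else if n = 8 then 17 else 47

/-- lower bounds for `q` -/
structure QB (n q : ℕ) : Prop where
  h5 : n = 5 → 20 ≤ q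
  h6 : n = 6 → 8 ≤ q
  h7 : n = 7 → 6 ≤ q
  h8 : n = 8 → 4 ≤ q
  h9 : n = 9 → 3 ≤ q

theorem pc {C q0 d q : ℕ} (h : C ≤ q0 ^ d) (hq : q0 ≤ q) : C ≤ q ^ d := h.trans (Nat.pow_le_pow_left hq d)

/-- `(q - 1) A ≤ s q ^ c` -/
theorem div_bound {q A s c : ℕ} (hq : 2 ≤ q) (hs : s ≤ (q - 1) * q) (h : (q - 1) * A ≤ s * q ^ c) : A ≤ q ^ (c + 1) := by
  refine Nat.le_of_mul_le_mul_left ?_ (show 0 < q - 1 by omega)
  calc (q - 1) * A ≤ s * q ^ c := h
    _ ≤ (q - 1) * q * q ^ c := Nat.mul_le_mul_right _ hs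
    _ = _ := by rw [pow_succ]; ring

theorem prime_div {s n : ℕ} (hs : s.Prime) (hd : s ∣ n) (hn : 1 ≤ n) (hn9 : n ≤ 9) : s = 2 ∨ s = 3 ∨ s = 5 ∨ s = 7 := by
  have h1 : s ≤ 9 := (Nat.le_of_dvd hn hd).trans hn9
  have h2 := hs.two_le
  interval_cases s
  · omega
  · omega
  · exact absurd hs (by norm_num)
  · omega
  · exact absurd hs (by norm_num)
  · omega
  · exact absurd hs (by norm_num)
  · exact absurd hs (by norm_num)

/-- the factor with the prime for `n` -/
theorem num_x {n q A : ℕ} (hn : 5 ≤ n) (hn9 : n ≤ 9) (hA : 1 ≤ A) (hq : QB n q)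
    (h : (∃ s, s.Prime ∧ s ∣ n ∧ (q - 1) * A ≤ s * q ^ (n ^ 2 / s)) ∨ (Even n ∧ A ≤ q ^ (n * (n + 1) / 2 + 1)) ∨
      (Even n ∧ A ≤ 2 * q ^ (n * (n - 1) / 2 + 1)) ∨ A ≤ C9 n n) : A ≤ q ^ aN n := by
  have hq2 : 3 ≤ q := by
    have := hq.h5; have := hq.h6; have := hq.h7; have := hq.h8; have := hq.h9
    omega
  have hq1 : 1 ≤ q := by omega
  rcases h with ⟨s, hs, hsn, h1⟩ | ⟨h0, h1⟩ | ⟨h0, h1⟩ | h1
  · have h9 := prime_div hs hsn (by omega) hn9
    have h2 : s ≤ (q - 1) * q := by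
      have h3 : s ≤ n := Nat.le_of_dvd (by omega) hsn
      obtain ⟨r, rfl⟩ : ∃ r, q = r + 1 := ⟨q - 1, by omega⟩
      rw [Nat.add_sub_cancel]
      have := hq.h5; have := hq.h6; have := hq.h7; have := hq.h8; have := hq.h9
      rcases h9 with rfl | rfl | rfl | rfl
      · nlinarith
      · nlinarith
      · have : 5 ≤ n := h3
        have : r + 1 ≥ 4 := by
          by_contra hlt
          have : n = 9 := by omega
          subst this
          norm_num at hsn
        nlinarith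
      · have : r + 1 ≥ 4 := by
          by_contra hlt
          have : n = 9 := by omega
          subst this
          norm_num at hsn
        nlinarith
    refine (div_bound (by omega) h2 h1).trans (Nat.pow_le_pow_right hq1 ?_)
    unfold aN
    interval_cases n <;> rcases h9 with rfl | rfl | rfl | rfl <;> first | (norm_num; done) | (exfalso; revert hsn; norm_num; done)
  · refine h1.trans (Nat.pow_le_pow_right hq1 ?_)
    unfold aN
    interval_cases n <;> first | (norm_num; done) | (exfalso; revert h0; decide)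
  · refine h1.trans ?_
    calc 2 * q ^ (n * (n - 1) / 2 + 1) ≤ q * q ^ (n * (n - 1) / 2 + 1) := Nat.mul_le_mul_right _ (by omega)
      _ = q ^ (n * (n - 1) / 2 + 1 + 1) := by rw [pow_succ _ (n * (n - 1) / 2 + 1), mul_comm]
      _ ≤ _ := Nat.pow_le_pow_right hq1 (by
        unfold aN
        interval_cases n <;> first | (norm_num; done) | (exfalso; revert h0; decide))
  · refine h1.trans ?_
    unfold C9 aN
    interval_cases n
    · exact pc (q0 := 20) (by norm_num) (hq.h5 rfl)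
    · exact pc (q0 := 8) (by norm_num) (hq.h6 rfl)
    · norm_num at h1 ⊢
    · exact pc (q0 := 4) (by norm_num) (hq.h8 rfl)
    · exact pc (q0 := 3) (by norm_num) (hq.h9 rfl)

/-- the factor with the prime for `n - 1`, reducible case -/
theorem num_y1 {n q A S S₀ : ℕ} (hn : 5 ≤ n) (hn9 : n ≤ 9) (hq : QB n q) (hA1 : 1 ≤ S₀)
    (hA : A ≤ q ^ (n - 1) * S) (hS : S ≤ (q - 1) * S₀)
    (h : (∃ s, s.Prime ∧ s ∣ n - 1 ∧ (q - 1) * S₀ ≤ s * q ^ ((n - 1) ^ 2 / s)) ∨
      (Even (n - 1) ∧ S₀ ≤ q ^ ((n - 1) * (n - 1 + 1) / 2 + 1)) ∨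
      (Even (n - 1) ∧ S₀ ≤ 2 * q ^ ((n - 1) * (n - 1 - 1) / 2 + 1)) ∨ (n - 1 = 4 ∧ S₀ ≤ 46080) ∨ S₀ ≤ C9 (n - 1) (n - 1)) :
    2 * A < q ^ bN n := by
  have hq2 : 3 ≤ q := by
    have := hq.h5; have := hq.h6; have := hq.h7; have := hq.h8; have := hq.h9
    omega
  have hq1 : 1 ≤ q := by omega
  have hA' : 2 * A ≤ 2 * (q ^ (n - 1) * ((q - 1) * S₀)) := Nat.mul_le_mul_left _ (hA.trans (Nat.mul_le_mul_left _ hS))
  have hA'' : 2 * A ≤ 2 * S₀ * q ^ n := by
    refine hA'.trans ?_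
    obtain ⟨m, rfl⟩ : ∃ m, n = m + 1 := ⟨n - 1, by omega⟩
    rw [Nat.add_sub_cancel]
    calc 2 * (q ^ m * ((q - 1) * S₀)) ≤ 2 * (q ^ m * (q * S₀)) :=
          Nat.mul_le_mul_left _ (Nat.mul_le_mul_left _ (Nat.mul_le_mul_right _ (Nat.sub_le _ _)))
      _ = _ := by rw [pow_succ]; ring
  have key : ∀ {C d : ℕ}, 2 * S₀ ≤ C → C < q ^ d → d + n ≤ bN n → 2 * A < q ^ bN n := by
    intro C d h1 h2 h3
    calc 2 * A ≤ 2 * S₀ * q ^ n := hA''
      _ ≤ C * q ^ n := Nat.mul_le_mul_right _ h1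
      _ < q ^ d * q ^ n := (Nat.mul_lt_mul_right (Nat.pow_pos (by omega))).2 h2
      _ = q ^ (d + n) := (pow_add _ _ _).symm
      _ ≤ _ := Nat.pow_le_pow_right hq1 h3
  have hlt : ∀ {a b : ℕ}, a < b → q ^ a < q ^ b := fun h => Nat.pow_lt_pow_right (by omega) h
  rcases h with ⟨s, hs, hsn, h1⟩ | ⟨h0, h1⟩ | ⟨h0, h1⟩ | ⟨h0, h1⟩ | h1
  · have h9 := prime_div hs hsn (by omega) (by omega)
    have h2 : 2 * s < q ^ 2 := by
      have h3 : s ≤ n - 1 := Nat.le_of_dvd (by omega) hsn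
      have := hq.h5; have := hq.h6; have := hq.h7; have := hq.h8; have := hq.h9
      rcases h9 with rfl | rfl | rfl | rfl
      · nlinarith
      · nlinarith
      · have h4 : n = 6 := by
          by_contra hne
          interval_cases n <;> first | omega | (revert hsn; norm_num)
        have := hq.h6 h4
        nlinarith
      · have h4 : n = 8 := by
          by_contra hne
          interval_cases n <;> first | omega | (revert hsn; norm_num)
        have := hq.h8 h4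
        nlinarith
    calc 2 * A ≤ 2 * (q ^ (n - 1) * ((q - 1) * S₀)) := hA'
      _ ≤ 2 * (q ^ (n - 1) * (s * q ^ ((n - 1) ^ 2 / s))) := Nat.mul_le_mul_left _ (Nat.mul_le_mul_left _ h1)
      _ = 2 * s * q ^ (n - 1 + (n - 1) ^ 2 / s) := by rw [pow_add]; ring
      _ < q ^ 2 * q ^ (n - 1 + (n - 1) ^ 2 / s) := (Nat.mul_lt_mul_right (Nat.pow_pos (by omega))).2 h2
      _ = q ^ (2 + (n - 1 + (n - 1) ^ 2 / s)) := (pow_add _ _ _).symm
      _ ≤ _ := Nat.pow_le_pow_right hq1 (by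
        unfold bN
        interval_cases n <;> rcases h9 with rfl | rfl | rfl | rfl <;>
          first | (norm_num; done) | (exfalso; revert hsn; norm_num; done))
  · refine key (C := 2 * q ^ ((n - 1) * (n - 1 + 1) / 2 + 1)) (d := (n - 1) * (n - 1 + 1) / 2 + 2)
      (Nat.mul_le_mul_left _ h1) ?_ ?_
    · rw [pow_succ q ((n - 1) * (n - 1 + 1) / 2 + 1), mul_comm]
      exact (Nat.mul_lt_mul_left (Nat.pow_pos (by omega))).2 (by omega)
    · unfold bN
      interval_cases n <;> first | (norm_num; done) | (exfalso; revert h0; decide)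
  · refine key (C := 2 * (2 * q ^ ((n - 1) * (n - 1 - 1) / 2 + 1))) (d := (n - 1) * (n - 1 - 1) / 2 + 1 + 2)
      (Nat.mul_le_mul_left _ h1) ?_ ?_
    · rw [pow_add q ((n - 1) * (n - 1 - 1) / 2 + 1) 2, ← mul_assoc, mul_comm]
      exact (Nat.mul_lt_mul_left (Nat.pow_pos (by omega))).2 (by nlinarith)
    · unfold bN
      interval_cases n <;> first | (norm_num; done) | (exfalso; revert h0; decide)
  · have h2 : n = 5 := by omega
    subst h2
    exact key (C := 92160) (d := 4) (by omega) (lt_of_lt_of_le (by norm_num) (Nat.pow_le_pow_left (hq.h5 rfl) 4)) (by norm_num [bN])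
  · unfold C9 at h1
    interval_cases n
    · norm_num at h1
      exact key (C := 2 * 207360) (d := 5) (by omega) (lt_of_lt_of_le (by norm_num) (Nat.pow_le_pow_left (hq.h5 rfl) 5)) (by norm_num [bN])
    · norm_num at h1
      exact key (C := 2 * 39600) (d := 6) (by omega) (lt_of_lt_of_le (by norm_num) (Nat.pow_le_pow_left (hq.h6 rfl) 6)) (by norm_num [bN])
    · norm_num at h1
      exact key (C := 2 * 235146240) (d := 12) (by omega) (lt_of_lt_of_le (by norm_num) (Nat.pow_le_pow_left (hq.h7 rfl) 12)) (by norm_num [bN])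
    · norm_num at h1
      omega
    · norm_num at h1
      exact key (C := 2 * 235146240) (d := 19) (by omega) (lt_of_lt_of_le (by norm_num) (Nat.pow_le_pow_left (hq.h9 rfl) 19)) (by norm_num [bN])

/-- the factor with the prime for `n - 1`, irreducible case -/
theorem num_y2 {n q A : ℕ} (hn : 5 ≤ n) (hn9 : n ≤ 9) (hq : QB n q)
    (h : (Even (n - 1) ∧ A ≤ 2 * q ^ (n * (n - 1) / 2 + 1)) ∨ (n.Prime ∧ A ≤ q ^ (n - 1) * n.factorial) ∨ A ≤ C9 n (n - 1)) :
    2 * A < q ^ bN n := by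
  have hq2 : 3 ≤ q := by
    have := hq.h5; have := hq.h6; have := hq.h7; have := hq.h8; have := hq.h9
    omega
  have hq1 : 1 ≤ q := by omega
  rcases h with ⟨h0, h1⟩ | ⟨h0, h1⟩ | h1
  · calc 2 * A ≤ 2 * (2 * q ^ (n * (n - 1) / 2 + 1)) := Nat.mul_le_mul_left _ h1
      _ = 4 * q ^ (n * (n - 1) / 2 + 1) := by ring
      _ < q ^ 2 * q ^ (n * (n - 1) / 2 + 1) := (Nat.mul_lt_mul_right (Nat.pow_pos (by omega))).2 (by nlinarith)
      _ = q ^ (2 + (n * (n - 1) / 2 + 1)) := (pow_add _ _ _).symm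
      _ ≤ _ := Nat.pow_le_pow_right hq1 (by
        unfold bN
        interval_cases n <;> first | (norm_num; done) | (exfalso; revert h0; decide))
  · have key : ∀ {d : ℕ}, 2 * n.factorial < q ^ d → d + (n - 1) ≤ bN n → 2 * A < q ^ bN n := by
      intro d h2 h3
      calc 2 * A ≤ 2 * (q ^ (n - 1) * n.factorial) := Nat.mul_le_mul_left _ h1
        _ = 2 * n.factorial * q ^ (n - 1) := by ring
        _ < q ^ d * q ^ (n - 1) := (Nat.mul_lt_mul_right (Nat.pow_pos (by omega))).2 h2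
        _ = q ^ (d + (n - 1)) := (pow_add _ _ _).symm
        _ ≤ _ := Nat.pow_le_pow_right hq1 h3
    interval_cases n
    · exact key (d := 4) (lt_of_lt_of_le (by norm_num [Nat.factorial]) (Nat.pow_le_pow_left (hq.h5 rfl) 4)) (by norm_num [bN])
    · exact absurd h0 (by norm_num)
    · exact key (d := 8) (lt_of_lt_of_le (by norm_num [Nat.factorial]) (Nat.pow_le_pow_left (hq.h7 rfl) 8)) (by norm_num [bN])
    · exact absurd h0 (by norm_num)
    · exact absurd h0 (by norm_num)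
  · unfold C9 at h1
    unfold bN
    interval_cases n
    · norm_num at h1 ⊢
      exact lt_of_le_of_lt (Nat.mul_le_mul_left 2 h1) (lt_of_lt_of_le (by norm_num) (Nat.pow_le_pow_left (hq.h5 rfl) 17))
    · norm_num at h1 ⊢
      exact lt_of_le_of_lt (Nat.mul_le_mul_left 2 h1) (lt_of_lt_of_le (by norm_num) (Nat.pow_le_pow_left (hq.h6 rfl) 12))
    · norm_num at h1 ⊢
      exact lt_of_le_of_lt (Nat.mul_le_mul_left 2 h1) (lt_of_lt_of_le (by norm_num) (Nat.pow_le_pow_left (hq.h7 rfl) 30))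
    · norm_num at h1 ⊢
      exact lt_of_le_of_lt (Nat.mul_le_mul_left 2 h1) (lt_of_lt_of_le (by norm_num) (Nat.pow_le_pow_left (hq.h8 rfl) 17))
    · norm_num at h1 ⊢
      exact lt_of_le_of_lt (Nat.mul_le_mul_left 2 h1) (lt_of_lt_of_le (by norm_num) (Nat.pow_le_pow_left (hq.h9 rfl) 47))

theorem num_fin {n q A B : ℕ} (hn : 5 ≤ n) (hn9 : n ≤ 9) (hq : 3 ≤ q) (h : q ^ (n ^ 2 - 2) ≤ 2 * (A * B))
    (hA : A ≤ q ^ aN n) (hB : 2 * B < q ^ bN n) : False := by
  have h1 : 2 * (A * B) < q ^ (n ^ 2 - 2) := by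
    calc 2 * (A * B) = A * (2 * B) := by ring
      _ ≤ q ^ aN n * (2 * B) := Nat.mul_le_mul_right _ hA
      _ < q ^ aN n * q ^ bN n := (Nat.mul_lt_mul_left (Nat.pow_pos (by omega))).2 hB
      _ = q ^ (aN n + bN n) := (pow_add _ _ _).symm
      _ ≤ _ := Nat.pow_le_pow_right (by omega) (by
        unfold aN bN
        interval_cases n <;> norm_num)
  omega

end Cfsg.Agent.H44.Rl.RedNum
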